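import Mathlib

/-! Free groups inside SL(2) over polynomial rings of every characteristic, and the resulting
non-vanishing of word maps over all sufficiently large fields. -/

set_option autoImplicit false

namespace Cfsg.Agent.WordMap

open Polynomial

/-- exponent of the left lower-unitriangular factor of a letter -/
def lexp : ℕ × Bool → ℕ
  | (i, true) => 2 * i + 1
  | (i, false) => 2 * i + 2

/-- exponent of the right lower-unitriangular factor of a letter -/
def rexp : ℕ × Bool → ℕ
  | (i, true) => 2 * i + 2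
  | (i, false) => 2 * i + 1

def sgn {R : Type*} [CommRing R] : ℕ × Bool → R
  | (_, true) => 1
  | (_, false) => -1

variable {R : Type*} [CommRing R]

def act (t : R) (l : ℕ × Bool) (v : R × R) : R × R :=
  let y := v.2 - t ^ rexp l * v.1
  let x := v.1 + sgn l * t ^ (2 * l.1 + 1) * y
  (x, y + t ^ lexp l * x)

def run (t : R) (L : List (ℕ × Bool)) : R × R := L.foldr (act t) (1, 0)

theorem map_run {S : Type*} [CommRing S] (φ : R →+* S) (t : R) (L : List (ℕ × Bool)) :
    run (φ t) L = Prod.map φ φ (run t L) := by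
  induction L with
  | nil => simp [run]
  | cons l L ih =>
    simp only [run, List.foldr_cons] at ih ⊢
    rw [ih]
    obtain ⟨i, b⟩ := l
    cases b <;> simp [act, sgn]

def mexp (L : List (ℕ × Bool)) : ℕ := (L.map fun l => 2 * l.1 + 2).sum

theorem rexp_ne_lexp {l m : ℕ × Bool} (h : l.1 = m.1 → l.2 = m.2) : rexp l ≠ lexp m := by
  obtain ⟨i, b⟩ := l; obtain ⟨j, c⟩ := m
  cases b <;> cases c <;> simp [rexp, lexp] at h ⊢ <;> omega

variable {F : Type*} [Field F]

theorem natDegree_sgn (l : ℕ × Bool) : (sgn l : F[X]).natDegree = 0 ∧ (sgn l : F[X]) ≠ 0 := by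
  obtain ⟨i, b⟩ := l; cases b <;> simp [sgn]

/-- the degree invariant -/
theorem invariant : ∀ (l : ℕ × Bool) (L : List (ℕ × Bool)), FreeGroup.IsReduced (l :: L) →
    ∃ x y : F[X], run (X : F[X]) (l :: L) = (x, y + X ^ lexp l * x) ∧ x ≠ 0 ∧
      y.natDegree < x.natDegree ∧ x.natDegree + (2 * l.1 + 2) ≤ 3 * mexp (l :: L) := by
  intro l L
  induction L generalizing l with
  | nil =>
    intro _
    refine ⟨1 - sgn l * X ^ (2 * l.1 + 1) * X ^ rexp l, -X ^ rexp l,
      by simp [run, act, sub_eq_add_neg], ?_⟩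
    have hd : (1 - sgn l * X ^ (2 * l.1 + 1) * X ^ rexp l : F[X]).natDegree =
        2 * l.1 + 1 + rexp l := by
      rw [natDegree_sub_eq_right_of_natDegree_lt] <;>
        rw [natDegree_mul (mul_ne_zero (natDegree_sgn l).2 (pow_ne_zero _ X_ne_zero))
          (pow_ne_zero _ X_ne_zero), natDegree_mul (natDegree_sgn l).2 (pow_ne_zero _ X_ne_zero),
          (natDegree_sgn l).1, natDegree_X_pow, natDegree_X_pow] <;> simp
    obtain ⟨i, b⟩ := l
    refine ⟨ne_zero_of_natDegree_gt (n := 0) (by omega), ?_, ?_⟩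
    · rw [hd, natDegree_neg, natDegree_X_pow]; omega
    · rw [hd]; cases b <;> simp [rexp, mexp] <;> omega
  | cons m L ih =>
    intro h
    have hlm : l.1 = m.1 → l.2 = m.2 := (FreeGroup.isReduced_cons_cons.1 h).1
    obtain ⟨x, y, hr, hx0, hyx, hxM⟩ := ih m (FreeGroup.isReduced_cons_cons.1 h).2
    set c : F[X] := X ^ lexp m - X ^ rexp l with hc
    set y' := y + c * x with hy'
    set x' := x + sgn l * X ^ (2 * l.1 + 1) * y' with hx'
    have hrun : run (X : F[X]) (l :: m :: L) = (x', y' + X ^ lexp l * x') := by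
      show act X l (run X (m :: L)) = _
      rw [hr, hx', hy', hc]
      simp only [act]
      rw [Prod.mk.injEq]; constructor <;> ring
    have hne : lexp m ≠ rexp l := fun e => rexp_ne_lexp hlm e.symm
    have hb : ∀ l : ℕ × Bool, 1 ≤ lexp l ∧ 1 ≤ rexp l ∧ lexp l ≤ 2 * l.1 + 2 ∧ rexp l ≤ 2 * l.1 + 2 := by
      rintro ⟨i, b⟩; cases b <;> simp [lexp, rexp]
    have hcd : c.natDegree = max (lexp m) (rexp l) := by
      rcases lt_or_gt_of_ne hne with hh | hh
      · rw [hc, natDegree_sub_eq_right_of_natDegree_lt (by simpa using hh), natDegree_X_pow,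
          max_eq_right hh.le]
      · rw [hc, natDegree_sub_eq_left_of_natDegree_lt (by simpa using hh), natDegree_X_pow,
          max_eq_left hh.le]
    have := hb l; have := hb m
    have hc0 : c ≠ 0 := ne_zero_of_natDegree_gt (n := 0) (by omega)
    have hyd : y'.natDegree = c.natDegree + x.natDegree := by
      rw [hy', natDegree_add_eq_right_of_natDegree_lt] <;> rw [natDegree_mul hc0 hx0]; omega
    have hy0 : y' ≠ 0 := ne_zero_of_natDegree_gt (n := 0) (by omega)
    have hxd : x'.natDegree = 2 * l.1 + 1 + y'.natDegree := by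
      rw [hx', natDegree_add_eq_right_of_natDegree_lt] <;>
        rw [natDegree_mul (mul_ne_zero (natDegree_sgn l).2 (pow_ne_zero _ X_ne_zero)) hy0,
          natDegree_mul (natDegree_sgn l).2 (pow_ne_zero _ X_ne_zero), (natDegree_sgn l).1,
          natDegree_X_pow] <;> omega
    refine ⟨x', y', hrun, ne_zero_of_natDegree_gt (n := 0) (by omega), by omega, ?_⟩
    simp only [mexp, List.map_cons, List.sum_cons] at hxM ⊢
    omega

theorem exists_point [Fintype F] (L : List (ℕ × Bool)) (hred : FreeGroup.IsReduced L) (hne : L ≠ [])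
    (hcard : 4 * mexp L < Fintype.card F) : ∃ t : F, (run t L).2 ≠ 0 := by
  obtain ⟨l, L, rfl⟩ := List.exists_cons_of_ne_nil hne
  obtain ⟨x, y, hr, hx0, hyx, hxM⟩ := invariant (F := F) l L hred
  set p := y + X ^ lexp l * x with hp
  have hl : 1 ≤ lexp l ∧ lexp l ≤ 2 * l.1 + 2 := by
    obtain ⟨i, b⟩ := l; cases b <;> simp [lexp]
  have hpd : p.natDegree = lexp l + x.natDegree := by
    rw [hp, natDegree_add_eq_right_of_natDegree_lt] <;>
      rw [natDegree_mul (pow_ne_zero _ X_ne_zero) hx0, natDegree_X_pow]; omega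
  have hp0 : p ≠ 0 := ne_zero_of_natDegree_gt (n := 0) (by omega)
  by_contra hc
  push Not at hc
  have hz : ∀ t : F, p.eval t = 0 := by
    intro t
    have := map_run (evalRingHom t) (X : F[X]) (l :: L)
    rw [hr] at this
    simp only [coe_evalRingHom, eval_X, Prod.map_apply] at this
    rw [← hc t, this]
  have := card_le_degree_of_subset_roots (p := p) (Z := Finset.univ)
    (fun t _ => (mem_roots hp0).2 (hz t))
  rw [Finset.card_univ, hpd] at this
  simp only [mexp, List.map_cons, List.sum_cons] at hxM hcard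
  omega

abbrev SL2 (F : Type*) [Field F] := Matrix.SpecialLinearGroup (Fin 2) F

def lo (c : F) : SL2 F := ⟨!![1, 0; c, 1], by simp [Matrix.det_fin_two]⟩
def up (c : F) : SL2 F := ⟨!![1, c; 0, 1], by simp [Matrix.det_fin_two]⟩

theorem lo_inv (c : F) : (lo c)⁻¹ = lo (-c) := by
  apply inv_eq_of_mul_eq_one_right; apply Subtype.ext
  show !![1, 0; c, 1] * !![1, 0; -c, 1] = (1 : Matrix (Fin 2) (Fin 2) F)
  ext i j; fin_cases i <;> fin_cases j <;> simp [Matrix.mul_apply, Fin.sum_univ_two]

theorem up_inv (c : F) : (up c)⁻¹ = up (-c) := by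
  apply inv_eq_of_mul_eq_one_right; apply Subtype.ext
  show !![1, c; 0, 1] * !![1, -c; 0, 1] = (1 : Matrix (Fin 2) (Fin 2) F)
  ext i j; fin_cases i <;> fin_cases j <;> simp [Matrix.mul_apply, Fin.sum_univ_two]

/-- images of the free generators -/
def gen (t : F) (i : ℕ) : SL2 F :=
  lo (t ^ (2 * i + 1)) * up (t ^ (2 * i + 1)) * lo (-t ^ (2 * i + 2))

theorem lo_mulVec (c x y : F) :
    (lo c : Matrix (Fin 2) (Fin 2) F).mulVec ![x, y] = ![x, y + c * x] := by
  funext i; fin_cases i <;> simp [lo, add_comm, mul_comm]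

theorem up_mulVec (c x y : F) :
    (up c : Matrix (Fin 2) (Fin 2) F).mulVec ![x, y] = ![x + c * y, y] := by
  funext i; fin_cases i <;> simp [up, mul_comm]

theorem letter_mulVec (t : F) (l : ℕ × Bool) (v : F × F) :
    ((bif l.2 then gen t l.1 else (gen t l.1)⁻¹ : SL2 F) : Matrix (Fin 2) (Fin 2) F).mulVec
      ![v.1, v.2] = ![(act t l v).1, (act t l v).2] := by
  obtain ⟨i, b⟩ := l
  cases b <;>
    simp only [cond_true, cond_false, gen, mul_inv_rev, lo_inv, up_inv, neg_neg,
      Matrix.SpecialLinearGroup.coe_mul, ← Matrix.mulVec_mulVec, lo_mulVec, up_mulVec] <;>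
    simp only [act, sgn, lexp, rexp] <;>
    ring_nf

theorem word_mulVec (t : F) (L : List (ℕ × Bool)) :
    (((L.map fun l => bif l.2 then gen t l.1 else (gen t l.1)⁻¹).prod : SL2 F) :
      Matrix (Fin 2) (Fin 2) F).mulVec ![1, 0] = ![(run t L).1, (run t L).2] := by
  induction L with
  | nil => simp [run]
  | cons l L ih =>
    rw [List.map_cons, List.prod_cons, Matrix.SpecialLinearGroup.coe_mul, ← Matrix.mulVec_mulVec,
      ih, letter_mulVec]
    rfl

/-- non-trivial words are non-central in SL(2) over large fields -/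
theorem word_noncentral (w : FreeGroup ℕ) (hw : w ≠ 1) :
    ∃ N : ℕ, ∀ (F : Type*) [Field F] [Fintype F], N ≤ Fintype.card F →
      ∃ f : ℕ → SL2 F, FreeGroup.lift f w ∉ Subgroup.center (SL2 F) := by
  refine ⟨4 * mexp w.toWord + 1, fun F _ _ hN => ?_⟩
  have hne : w.toWord ≠ [] := fun h => hw (FreeGroup.toWord_eq_nil_iff.1 h)
  obtain ⟨t, ht⟩ := exists_point (F := F) w.toWord FreeGroup.isReduced_toWord hne (by omega)
  refine ⟨gen t, fun hc => ht ?_⟩
  rw [← FreeGroup.mk_toWord (x := w), FreeGroup.lift_mk, Matrix.SpecialLinearGroup.mem_center_iff] at hc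
  obtain ⟨r, -, hr⟩ := hc
  have := word_mulVec t w.toWord
  rw [← hr] at this
  have h1 := congrFun this 1
  simpa using h1.symm

end Cfsg.Agent.WordMap
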